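import Cfsg.Agent.H141.Rg.Defs
import Cfsg.Agent.LieRecognition.SzMatrix

/-!
# `OrdData` for `Sz(q)`
-/

set_option autoImplicit false

open Cfsg Cfsg.Agent.H436 Cfsg.Agent.H141.Rg Cfsg.Agent.LieRecognition.SzMatrix Polynomial

namespace Cfsg.Agent.H240.Rg

/-- the polynomial argument -/
theorem pow_count {T : Type*} [Group T] {K ι : Type*} [Field K] [Fintype ι] [DecidableEq ι] (R : T →* Matrix ι ι K)
    {F : Type*} [Finite F] (x : F → T) (t : F → K) (ht : Function.Injective t) (P : Matrix ι ι K[X]) {D : ℕ} (hD : 1 ≤ D)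
    (hdeg : ∀ i j, (P i j).natDegree ≤ D) (hP : ∀ s, R (x s) = P.map (Polynomial.eval (t s)))
    {i0 j0 : ι} (h0 : ∀ i j, (i, j) ≠ (i0, j0) → (P i j).coeff D = 0) (h1 : (P i0 j0).coeff D ≠ 0)
    (g : T) (hg : R g j0 i0 ≠ 0) (m : ℕ) (hm : 1 ≤ m) : Nat.card {s : F // (g * x s) ^ m = 1} ≤ D * m := by
  classical
  set M : Matrix ι ι K[X] := (R g).map Polynomial.C * P with hM
  set N : Matrix ι ι K := Matrix.of fun i j => (M i j).coeff D with hN
  have hMi : ∀ i j, M i j = ∑ k, Polynomial.C (R g i k) * P k j := fun i j => by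
    rw [hM, Matrix.mul_apply]; rfl
  have hMdeg : ∀ i j, (M i j).natDegree ≤ D := fun i j => by
    rw [hMi]
    exact Polynomial.natDegree_sum_le_of_forall_le _ _ fun k _ => (Polynomial.natDegree_C_mul_le _ _).trans (hdeg k j)
  have hNj : ∀ i j, j ≠ j0 → N i j = 0 := fun i j hj => by
    show (M i j).coeff D = 0
    rw [hMi, Polynomial.finsetSum_coeff]
    refine Finset.sum_eq_zero fun k _ => ?_
    rw [Polynomial.coeff_C_mul, h0 k j (fun h => hj (congrArg Prod.snd h)), mul_zero]
  have hNe : N j0 j0 ≠ 0 := by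
    show (M j0 j0).coeff D ≠ 0
    rw [hMi, Polynomial.finsetSum_coeff, Finset.sum_eq_single i0]
    · rw [Polynomial.coeff_C_mul]
      exact mul_ne_zero hg h1
    · intro k _ hk
      rw [Polynomial.coeff_C_mul, h0 k j0 (fun h => hk (congrArg Prod.fst h)), mul_zero]
    · intro h
      exact absurd (Finset.mem_univ _) h
  have hpow : ∀ n : ℕ, ∀ i j, ((M ^ n) i j).natDegree ≤ D * n ∧ ((M ^ n) i j).coeff (D * n) = (N ^ n) i j := by
    intro n
    induction n with
    | zero =>
      intro i j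
      rw [pow_zero, pow_zero, mul_zero, Matrix.one_apply, Matrix.one_apply]
      split_ifs <;> simp
    | succ n ih =>
      intro i j
      have e1 : (M ^ (n + 1)) i j = ∑ k, (M ^ n) i k * M k j := by rw [pow_succ, Matrix.mul_apply]
      have e2 : (N ^ (n + 1)) i j = ∑ k, (N ^ n) i k * N k j := by rw [pow_succ, Matrix.mul_apply]
      rw [e1, e2]
      constructor
      · refine Polynomial.natDegree_sum_le_of_forall_le _ _ fun k _ => ?_
        rw [mul_add, mul_one]
        exact Polynomial.natDegree_mul_le_of_le (ih i k).1 (hMdeg k j)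
      · rw [Polynomial.finsetSum_coeff]
        refine Finset.sum_congr rfl fun k _ => ?_
        rw [mul_add, mul_one, Polynomial.coeff_mul_add_eq_of_natDegree_le (ih i k).1 (hMdeg k j), (ih i k).2]
        rfl
  have hNpow : ∀ n : ℕ, (N ^ n) j0 j0 = N j0 j0 ^ n := by
    intro n
    induction n with
    | zero => rw [pow_zero, pow_zero, Matrix.one_apply_eq]
    | succ n ih =>
      rw [pow_succ', Matrix.mul_apply, Finset.sum_eq_single j0]
      · rw [ih, pow_succ']
      · intro k _ hk
        rw [hNj _ _ hk, zero_mul]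
      · intro h
        exact absurd (Finset.mem_univ _) h
  set p : K[X] := (M ^ m) j0 j0 - 1 with hp
  have hDm : 1 ≤ D * m := Nat.mul_pos hD hm
  have hpc : p.coeff (D * m) ≠ 0 := by
    rw [hp, Polynomial.coeff_sub, (hpow m j0 j0).2, hNpow, Polynomial.coeff_one, if_neg (by omega), sub_zero]
    exact pow_ne_zero _ hNe
  have hp0 : p ≠ 0 := fun h => hpc (by rw [h, Polynomial.coeff_zero])
  have hpd : p.natDegree ≤ D * m := by
    rw [hp]
    refine (Polynomial.natDegree_sub_le _ _).trans (max_le (hpow m j0 j0).1 ?_)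
    rw [Polynomial.natDegree_one]
    omega
  have hroot : ∀ s : {s : F // (g * x s) ^ m = 1}, t s ∈ p.roots := by
    rintro ⟨s, hs⟩
    rw [Polynomial.mem_roots hp0, Polynomial.IsRoot.def]
    have e1 : M.map (Polynomial.evalRingHom (t s)) = R (g * x s) := by
      rw [hM, Matrix.map_mul, map_mul, hP s]
      congr 1
      ext i j
      simp
    have e2 : (M ^ m).map (Polynomial.evalRingHom (t s)) = 1 := by
      rw [Matrix.map_pow, e1, ← map_pow, hs, map_one]
    have e3 := congrFun (congrFun e2 j0) j0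
    rw [Matrix.one_apply_eq, Matrix.map_apply, Polynomial.coe_evalRingHom] at e3
    show Polynomial.eval (t s) ((M ^ m) j0 j0 - 1) = 0
    rw [Polynomial.eval_sub, e3, Polynomial.eval_one, sub_self]
  have hinj : Function.Injective fun s : {s : F // (g * x s) ^ m = 1} =>
      (⟨t s, Multiset.mem_toFinset.2 (hroot s)⟩ : {y : K // y ∈ p.roots.toFinset}) := by
    intro a b hab
    exact Subtype.ext (ht (congrArg Subtype.val hab))
  refine (Nat.card_le_card_of_injective _ hinj).trans ?_
  rw [Nat.card_eq_fintype_card, Fintype.card_coe]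
  exact (Multiset.toFinset_card_le _).trans ((Polynomial.card_roots' p).trans hpd)

/-- **X8, the data** -/
theorem ord_sz : ∃ c0 D0 : ℝ, 0 < c0 ∧ ∀ (q : ℕ) (T : Type) [Group T] [Finite T], IsNamed (.sz q) T →
    OrdData T q c0 D0 := by
  refine ⟨1 / 2, 2, by norm_num, fun q T _ _ hT => ?_⟩
  obtain ⟨F, _, _, m, hm, hFq', hFq, ⟨e⟩⟩ := hT.real
  have hF : Fintype.card F = 2 ^ (2 * m + 1) := hFq'.trans hFq
  have H := good hF
  let R : T →* Matrix (Fin 4) (Fin 4) F :=
    (Units.coeHom (Matrix (Fin 4) (Fin 4) F)).comp ((Cfsg.Lie.Sz F (2 ^ (m + 1))).subtype.comp e.toMonoidHom)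
  have hR : ∀ g, R g = (e g).1.1 := fun _ => rfl
  let B : Subgroup T := H.borel.comap e.toMonoidHom
  have hB : ∀ g, g ∈ B ↔ R g 3 0 = 0 := fun _ => Iff.rfl
  refine ⟨F, inferInstance, fun b => e.symm (H.u 0 b), {g | R g 3 0 ≠ 0}, 2 ^ (m + 1), ?_, ?_, ?_, ?_, ?_⟩
  · intro a b hab
    exact (H.u_inj (e.symm.injective hab)).2
  · rw [Nat.card_eq_fintype_card, hF, hFq]
  · have hidx : 2 ≤ B.index := by
      have h1 : B.index ≠ 1 := fun h => by
        rw [Subgroup.index_eq_one] at h
        have h2 : e.symm H.w ∈ B := h ▸ Subgroup.mem_top _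
        have h3 : e (e.symm H.w) ∈ H.borel := h2
        rw [e.apply_symm_apply] at h3
        exact H.w_not_mem_borel h3
      have h0 : B.index ≠ 0 := Subgroup.FiniteIndex.index_ne_zero
      omega
    have hcard : Nat.card B * B.index = Nat.card T := B.card_mul_index
    have hset : ({g | R g 3 0 ≠ 0} : Set T) = (B : Set T)ᶜ := by
      ext g
      show R g 3 0 ≠ 0 ↔ ¬ g ∈ B
      rw [hB]
    have hcompl : Nat.card ({g | R g 3 0 ≠ 0} : Set T) + Nat.card B = Nat.card T := by
      rw [hset, add_comm]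
      exact Set.ncard_add_ncard_compl (B : Set T)
    have h4 : 2 * Nat.card B ≤ Nat.card T := by nlinarith
    have h5 : Nat.card T ≤ 2 * Nat.card ({g | R g 3 0 ≠ 0} : Set T) := by omega
    have h6 : (Nat.card T : ℝ) ≤ 2 * Nat.card ({g | R g 3 0 ≠ 0} : Set T) := by exact_mod_cast h5
    linarith
  · rw [hFq]
    have h1 : ((2 ^ (m + 1) : ℕ) : ℝ) = 2 * 2 ^ m := by push_cast; ring
    rw [h1]
    have h2 : (2 : ℝ) ^ m ≤ Real.sqrt ((2 ^ (2 * m + 1) : ℕ) : ℝ) := by
      apply Real.le_sqrt_of_sq_le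
      push_cast
      rw [← pow_mul]
      exact pow_le_pow_right₀ (by norm_num) (by omega)
    linarith
  · intro g hg k hk
    let P : Matrix (Fin 4) (Fin 4) F[X] :=
      !![1, 0, X, X ^ 2 ^ (m + 1); 0, 1, 0, X; 0, 0, 1, 0; 0, 0, 0, 1]
    have hD : 2 ≤ 2 ^ (m + 1) := by
      calc 2 = 2 ^ 1 := by norm_num
        _ ≤ 2 ^ (m + 1) := Nat.pow_le_pow_right (by norm_num) (by omega)
    refine pow_count R (fun b => e.symm (H.u 0 b)) id Function.injective_id P (by omega) ?_ ?_ (i0 := 0) (j0 := 3) ?_ ?_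
      g hg k hk
    · intro i j
      fin_cases i <;> fin_cases j <;> simp [P] <;> omega
    · intro b
      rw [hR, e.apply_symm_apply, H.u_val, H.U_val, Umat_def]
      ext i j
      fin_cases i <;> fin_cases j <;> simp [P, theta_apply]
    · intro i j hij
      fin_cases i <;> fin_cases j <;> simp [P, Polynomial.coeff_one, Polynomial.coeff_X] at hij ⊢ <;> omega
    · simp [P]

end Cfsg.Agent.H240.Rg
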