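import Cfsg.Agent.H753.AbSz
import Cfsg.Agent.LieExceptional.SuzukiCN

/-!
# Centralisers in `Sz(q)` have order at most `q²`
-/

set_option autoImplicit false

open scoped MatrixGroups Matrix
open Cfsg.Agent.LieExceptional Cfsg.Agent.LieExceptional.SuzukiBasic Cfsg.Agent.LieExceptional.SuzukiCN

namespace Cfsg.Agent.H240.Rg

theorem card_cent_sz' {F : Type*} [Field F] [Fintype F] {m : ℕ} (hm : 1 ≤ m) (hF : Fintype.card F = 2 ^ (2 * m + 1))
    {g : Cfsg.Sz F m} (hg : g ≠ 1) : Nat.card (Subgroup.centralizer ({g} : Set (Cfsg.Sz F m))) ≤ Fintype.card F ^ 2 := by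
  have : Finite (Cfsg.suzukiOvoid F m) := Finite.of_equiv _ (SuzukiBasic.ovoidEquiv F m)
  have HH := SuzukiHyp.hyp hm hF
  have h8 := HH.eight_le
  by_cases hfree : g ∈ SuzukiTori.Hyp.free (Cfsg.Sz F m) (Cfsg.suzukiOvoid F m)
  · refine (H753.AbSz.card_free_le HH hfree).trans ?_
    rw [hF]
    have h1 : 2 ^ (m + 1) ≤ 2 ^ (2 * m + 1) := Nat.pow_le_pow_right (by norm_num) (by omega)
    nlinarith
  rw [SuzukiTori.Hyp.mem_free_iff] at hfree
  push Not at hfree
  obtain ⟨α, hα⟩ := hfree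
  have hα' : (g : SL(4, F)) • (α : Projectivization F (Fin 4 → F)) = α := congrArg Subtype.val hα
  by_cases hβ : ∃ β : Cfsg.suzukiOvoid F m, β ≠ α ∧ g • β = β
  · obtain ⟨β, hβ1, hβ2⟩ := hβ
    have hβ' : (g : SL(4, F)) • (β : Projectivization F (Fin 4 → F)) = β := congrArg Subtype.val hβ2
    obtain ⟨y, hy, hyα, hyβ⟩ := exists_smul_eq hF α.2 β.2 (fun h => hβ1 (Subtype.ext h.symm))
    have hyα' : y⁻¹ • Cfsg.suzukiPointInfinity F = α := by rw [inv_smul_eq_iff, hyα]
    have hyβ' : y⁻¹ • Cfsg.suzukiPointZero F = β := by rw [inv_smul_eq_iff, hyβ]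
    obtain ⟨k, hk⟩ := eq_H_of_fix_two hm hF (mul_mem (mul_mem hy g.2) (inv_mem hy))
      (by rw [mul_smul, mul_smul, hyα', hα', hyα]) (by rw [mul_smul, mul_smul, hyβ', hβ', hyβ])
    have hk1 : k ≠ 1 := by
      rintro rfl
      apply hg
      apply Subtype.ext
      have : (g : SL(4, F)) = y⁻¹ * (y * g * y⁻¹) * y := by group
      rw [this, hk, H_one]
      show y⁻¹ * 1 * y = 1
      group
    have key : ∀ a : Subgroup.centralizer ({g} : Set (Cfsg.Sz F m)),
        ∃ l : Fˣ, y * ((a : Cfsg.Sz F m) : SL(4, F)) * y⁻¹ = H m l := by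
      intro a
      have h1 : ((a : Cfsg.Sz F m) : SL(4, F)) * g = g * (a : Cfsg.Sz F m) :=
        congrArg Subtype.val (Subgroup.mem_centralizer_singleton_iff.1 a.2)
      apply eq_H_of_commute hm hF hk1 (mul_mem (mul_mem hy (a : Cfsg.Sz F m).2) (inv_mem hy))
      rw [← hk]
      have e1 : y * ((a : Cfsg.Sz F m) : SL(4, F)) * y⁻¹ * (y * g * y⁻¹) = y * ((a : Cfsg.Sz F m) * g) * y⁻¹ := by group
      have e2 : y * (g : SL(4, F)) * y⁻¹ * (y * (a : Cfsg.Sz F m) * y⁻¹) = y * (g * (a : Cfsg.Sz F m)) * y⁻¹ := by group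
      rw [e1, e2, h1]
    choose l hl using key
    have hinj : Function.Injective l := by
      intro a b hab
      have h1 : y * ((a : Cfsg.Sz F m) : SL(4, F)) * y⁻¹ = y * ((b : Cfsg.Sz F m) : SL(4, F)) * y⁻¹ := by
        rw [hl, hl, hab]
      exact Subtype.ext (Subtype.ext (mul_left_cancel (mul_right_cancel h1)))
    refine (Nat.card_le_card_of_injective l hinj).trans ?_
    rw [Nat.card_units, Nat.card_eq_fintype_card, hF]
    nlinarith [Nat.sub_le (2 ^ (2 * m + 1)) 1]
  · push Not at hβ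
    have hnt : Nontrivial (Cfsg.suzukiOvoid F m) := by
      rw [← Finite.one_lt_card_iff_nontrivial, HH.card_set]
      have : 0 < (2 ^ (2 * m + 1)) ^ 2 := by positivity
      omega
    obtain ⟨β, hβ1⟩ := exists_ne α
    obtain ⟨y, hy, hyα, -⟩ := exists_smul_eq hF α.2 β.2 (fun h => hβ1 (Subtype.ext h.symm))
    have hyα' : y⁻¹ • Cfsg.suzukiPointInfinity F = α := by rw [inv_smul_eq_iff, hyα]
    have hg' : y * (g : SL(4, F)) * y⁻¹ ∈ Cfsg.Sz F m := mul_mem (mul_mem hy g.2) (inv_mem hy)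
    obtain ⟨a, b, hab⟩ := eq_U_of_fix_only_infinity hm hF hg'
      (by rw [mul_smul, mul_smul, hyα', hα', hyα]) (by
        intro p hp hfix
        by_contra hne
        have hp' : y⁻¹ • p ∈ Cfsg.suzukiOvoid F m := (smul_mem_ovoid (inv_mem hy)).2 hp
        refine hβ ⟨y⁻¹ • p, hp'⟩ ?_ ?_
        · intro h
          have h1 : y⁻¹ • p = α := congrArg Subtype.val h
          apply hne
          rw [← hyα, ← h1, smul_inv_smul]
        · apply Subtype.ext
          show (g : SL(4, F)) • (y⁻¹ • p) = y⁻¹ • p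
          rw [eq_inv_smul_iff, ← mul_smul, ← mul_smul]
          exact hfix)
    have hab0 : ¬ (a = 0 ∧ b = 0) := by
      rintro ⟨rfl, rfl⟩
      rw [U_zero_zero] at hab
      apply hg
      apply Subtype.ext
      have : (g : SL(4, F)) = y⁻¹ * (y * g * y⁻¹) * y := by group
      rw [this, hab]
      show y⁻¹ * 1 * y = 1
      group
    have key : ∀ x : Subgroup.centralizer ({g} : Set (Cfsg.Sz F m)),
        ∃ p : F × F, y * ((x : Cfsg.Sz F m) : SL(4, F)) * y⁻¹ = U m p.1 p.2 := by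
      intro x
      have h1 : ((x : Cfsg.Sz F m) : SL(4, F)) * g = g * (x : Cfsg.Sz F m) :=
        congrArg Subtype.val (Subgroup.mem_centralizer_singleton_iff.1 x.2)
      obtain ⟨c, d, hcd⟩ := eq_U_of_commute hm hF hab0 (mul_mem (mul_mem hy (x : Cfsg.Sz F m).2) (inv_mem hy)) (by
        rw [← hab]
        have e1 : y * ((x : Cfsg.Sz F m) : SL(4, F)) * y⁻¹ * (y * g * y⁻¹) = y * ((x : Cfsg.Sz F m) * g) * y⁻¹ := by
          group
        have e2 : y * (g : SL(4, F)) * y⁻¹ * (y * (x : Cfsg.Sz F m) * y⁻¹) = y * (g * (x : Cfsg.Sz F m)) * y⁻¹ := by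
          group
        rw [e1, e2, h1])
      exact ⟨(c, d), hcd⟩
    choose l hl using key
    have hinj : Function.Injective l := by
      intro a b hab
      have h1 : y * ((a : Cfsg.Sz F m) : SL(4, F)) * y⁻¹ = y * ((b : Cfsg.Sz F m) : SL(4, F)) * y⁻¹ := by
        rw [hl, hl, hab]
      exact Subtype.ext (Subtype.ext (mul_left_cancel (mul_right_cancel h1)))
    refine (Nat.card_le_card_of_injective l hinj).trans ?_
    rw [Nat.card_prod, Nat.card_eq_fintype_card, sq]

theorem card_cent_equiv {G H : Type*} [Group G] [Group H] (e : G ≃* H) (g : G) :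
    Nat.card (Subgroup.centralizer ({e g} : Set H)) = Nat.card (Subgroup.centralizer ({g} : Set G)) := by
  symm
  refine Nat.card_congr
    { toFun := fun x => ⟨e x, ?_⟩
      invFun := fun x => ⟨e.symm x, ?_⟩
      left_inv := fun x => Subtype.ext (e.symm_apply_apply _)
      right_inv := fun x => Subtype.ext (e.apply_symm_apply _) }
  · have h := Subgroup.mem_centralizer_singleton_iff.1 x.2
    rw [Subgroup.mem_centralizer_singleton_iff, ← map_mul, ← map_mul, h]
  · have h := Subgroup.mem_centralizer_singleton_iff.1 x.2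
    rw [Subgroup.mem_centralizer_singleton_iff]
    apply e.injective
    rw [map_mul, map_mul, e.apply_symm_apply, h]

/-- **centralisers in `Sz(q)`** -/
theorem card_cent_sz {F : Type*} [Field F] [Fintype F] {m : ℕ} (hm : 1 ≤ m) (hF : Fintype.card F = 2 ^ (2 * m + 1))
    {g : ↥(Cfsg.Lie.Sz F (2 ^ (m + 1)))} (hg : g ≠ 1) :
    Nat.card (Subgroup.centralizer ({g} : Set ↥(Cfsg.Lie.Sz F (2 ^ (m + 1))))) ≤ Fintype.card F ^ 2 := by
  obtain ⟨e⟩ := OddCyclic.ClaimC.SzIso.iso hm hF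
  rw [← card_cent_equiv e.symm]
  exact card_cent_sz' hm hF fun h => hg (e.symm.injective (by rw [h, map_one]))

end Cfsg.Agent.H240.Rg
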