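import Cfsg.Agent.H141.Rg.Defs
import Cfsg.Agent.H755.Leo.Rat
import Cfsg.Agent.H240.Rg.SzChar
import Cfsg.Agent.H240.Rg.SzCent
import Cfsg.Agent.S1162

/-!
# Character ratios of `Sz(q)`
-/

set_option autoImplicit false

open Cfsg Cfsg.Agent.Characters.Core Cfsg.Agent.H436 Cfsg.Agent.H141.Rg Cfsg.Agent.LieRecognition.SzMatrix

namespace Cfsg.Agent.H240.Rg

theorem char_faithful {T : Type*} [Group T] [Finite T] [IsSimpleGroup T] {χ : T → ℂ} (hχ : IsIrrCharacter T χ)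
    (hne : ∃ g, χ g ≠ 1) {z : T} (hz : z ≠ 1) : χ 1 ≠ χ z := by
  classical
  have := Fintype.ofFinite T
  intro h
  rcases (inferInstance : (H686.CharKit.chKer (⟨χ, hχ⟩ : IrrCharacter T)).Normal).eq_bot_or_eq_top with h1 | h1
  · exact hz ((Subgroup.eq_bot_iff_forall _).1 h1 z h.symm)
  · have h2 : ∀ g, χ g = χ 1 := fun g => by
      have : g ∈ H686.CharKit.chKer (⟨χ, hχ⟩ : IrrCharacter T) := h1 ▸ Subgroup.mem_top g
      exact this
    obtain ⟨n, hn0, hn⟩ := isIrr_apply_one hχ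
    have h3 := classInner_irr_self hχ
    rw [classInner_def, Finset.sum_congr rfl fun g _ => by rw [h2 g, hn], Finset.sum_const, Finset.card_univ,
      ← Nat.card_eq_fintype_card, nsmul_eq_mul, ← mul_assoc, inv_mul_cancel₀ card_ne_zero_complex, one_mul,
      Complex.conj_natCast] at h3
    have h4 : n * n = 1 := by exact_mod_cast h3
    have h5 : n = 1 := Nat.eq_one_of_mul_eq_one_left h4
    obtain ⟨g, hg⟩ := hne
    exact hg (by rw [h2, hn, h5, Nat.cast_one])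

/-- `Rat` is invariant under isomorphism -/
theorem Rat.of_equiv {S T : Type*} [Group S] [Group T] (e : S ≃* T) {ρ : ℝ} {z : S} (h : Rat ρ z) : Rat ρ (e z) := by
  intro χ hχ hne
  have h1 := h (χ ∘ e) (isIrr_comp e.toMonoidHom e.surjective hχ) (by
    obtain ⟨g, hg⟩ := hne
    exact ⟨e.symm g, by simpa using hg⟩)
  simpa using h1

theorem rat_sz_aux {F : Type*} [Field F] [Fintype F] {m : ℕ} (hm : 1 ≤ m) (hF : Fintype.card F = 2 ^ (2 * m + 1))
    (z : ↥(Cfsg.Lie.Sz F (2 ^ (m + 1)))) (hz : z ≠ 1) : Rat (4 / (Fintype.card F : ℝ) ^ (1 / 4 : ℝ)) z := by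
  classical
  have := Cfsg.Agent.S1162.result hm hF
  have H := good hF
  have hn : ∀ χ : ↥(Cfsg.Lie.Sz F (2 ^ (m + 1))) → ℂ, IsIrrCharacter _ χ → ∀ g, g ≠ 1 → ‖χ g‖ ≤ Fintype.card F := by
    intro χ hχ g hg
    have h1 := H755.Leo.normSq_le hχ g
    have h2 : (Nat.card (Subgroup.centralizer ({g} : Set ↥(Cfsg.Lie.Sz F (2 ^ (m + 1))))) : ℝ) ≤ (Fintype.card F : ℝ) ^ 2 := by
      exact_mod_cast card_cent_sz hm hF hg
    rw [Complex.normSq_eq_norm_sq] at h1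
    exact le_of_sq_le_sq (h1.trans h2) (Nat.cast_nonneg _)
  intro χ hχ hne
  have hu1 : H.u 0 1 ≠ 1 := by
    rw [← H.u_zero]
    intro h
    exact one_ne_zero (H.u_inj h).2
  obtain ⟨d, hd, k, hdk, hk⟩ := deg_sz H hχ (char_faithful hχ hne hu1)
  rw [Nat.card_eq_fintype_card] at hd hk
  set q := Fintype.card F with hq
  have hq8 : 8 ≤ q := by
    rw [hF]
    calc 8 = 2 ^ 3 := by norm_num
      _ ≤ 2 ^ (2 * m + 1) := Nat.pow_le_pow_right (by norm_num) (by omega)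
  obtain ⟨n, hn0, hn1⟩ := isIrr_apply_one hχ
  have hd2 : 2 ≤ d := by
    by_contra hcon
    have : d ^ 2 ≤ 1 := by
      have : d ≤ 1 := by omega
      nlinarith
    omega
  have h1 : (n : ℝ) - (χ (H.u 0 1)).re = q * k := by
    have := congrArg Complex.re hk
    rw [hn1] at this
    simpa using this
  have h2 : -(q : ℝ) ≤ (χ (H.u 0 1)).re :=
    (neg_le_neg (hn χ hχ _ hu1)).trans (abs_le.1 (Complex.abs_re_le_norm _)).1
  have hqr : (8 : ℝ) ≤ q := by exact_mod_cast hq8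
  have hdr : (2 : ℝ) ≤ d := by exact_mod_cast hd2
  have hkr : (d : ℝ) ≤ k := by exact_mod_cast hdk
  have h3 : (q : ℝ) * d ≤ 2 * n := by nlinarith
  have h4 : (q : ℝ) ^ (1 / 4 : ℝ) ≤ 2 * d := by
    calc (q : ℝ) ^ (1 / 4 : ℝ) ≤ (q : ℝ) ^ (1 / 2 : ℝ) :=
          Real.rpow_le_rpow_of_exponent_le (by linarith) (by norm_num)
      _ = Real.sqrt q := (Real.sqrt_eq_rpow _).symm
      _ ≤ 2 * d := by
          rw [Real.sqrt_le_left (by linarith)]
          have : (q : ℝ) ≤ 2 * (d : ℝ) ^ 2 := by exact_mod_cast hd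
          nlinarith
  have h5 : 0 < (q : ℝ) ^ (1 / 4 : ℝ) := Real.rpow_pos_of_pos (by linarith) _
  rw [hn1, Complex.natCast_re]
  refine (hn χ hχ z hz).trans ?_
  rw [div_mul_eq_mul_div, le_div_iff₀ h5]
  nlinarith [mul_le_mul_of_nonneg_left h4 (by linarith : (0 : ℝ) ≤ q)]

/-- **X8, the ratios** -/
theorem rat_sz : ∃ C : ℝ, ∀ (q : ℕ) (T : Type) [Group T] [Finite T], IsNamed (.sz q) T → ∀ z : T, z ≠ 1 →
    Rat (C / (q : ℝ) ^ (1 / 4 : ℝ)) z := by
  refine ⟨4, fun q T _ _ hT z hz => ?_⟩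
  obtain ⟨F, _, _, m, hm, hF, hFq, ⟨e⟩⟩ := hT.real
  subst hFq
  have h := rat_sz_aux hm hF (e z) fun h => hz (e.injective (by rw [h, map_one]))
  have h2 := Rat.of_equiv e.symm h
  rw [e.symm_apply_apply] at h2
  rwa [← hF]

end Cfsg.Agent.H240.Rg
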